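import Mathlib
import Cfsg.Agent.SymMax.Partition

/-!
Stabilizers of uniform partitions in the alternating group.
-/

set_option autoImplicit false

open MulAction Equiv
open scoped Pointwise

namespace Cfsg.Agent.SymMax

variable {Ω : Type*} {ι : Type*} [Fintype Ω] [DecidableEq Ω]

/-- Criterion for the trace of a subgroup on the alternating group to be maximal there. -/
theorem isCoatom_inf_alternating {K : Subgroup (Perm Ω)} (hne : ∃ g ∈ alternatingGroup Ω, g ∉ K)
    (hX : ∀ X : Subgroup (Perm Ω), K ⊓ alternatingGroup Ω ≤ X → X ≤ alternatingGroup Ω → ¬ X ≤ K →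
      alternatingGroup Ω ≤ X) :
    IsCoatom ((K ⊓ alternatingGroup Ω).subgroupOf (alternatingGroup Ω)) := by
  constructor
  · intro h
    obtain ⟨g, hg, hgK⟩ := hne
    rw [Subgroup.subgroupOf_eq_top] at h
    exact hgK (h hg).1
  · intro Y hY
    have h1 : K ⊓ alternatingGroup Ω ≤ Y.map (alternatingGroup Ω).subtype := by
      intro g hg
      exact ⟨⟨g, hg.2⟩, hY.le hg, rfl⟩
    have h2 := hX (Y.map (alternatingGroup Ω).subtype) h1 (Subgroup.map_subtype_le Y) (by
      intro h
      apply hY.not_ge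
      intro y hy
      exact ⟨h ⟨y, hy, rfl⟩, y.2⟩)
    rw [eq_top_iff]
    rintro g -
    obtain ⟨y, hy, hyg⟩ := h2 g.2
    have : y = g := Subtype.ext hyg
    rw [← this]; exact hy

theorem mul_mem_alt_of_odd {s g : Perm Ω} (hs : Perm.sign s = -1) (hg : ¬ Perm.sign g = 1) :
    s * g ∈ alternatingGroup Ω := by
  have hg' : Perm.sign g = -1 := (Int.units_eq_one_or _).resolve_left hg
  rw [Perm.mem_alternatingGroup, Perm.sign_mul, hs, hg']
  simp

/-- Parity correction by a swap inside a fibre. -/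
theorem parity_fix {f : Ω → ι} {X : Subgroup (Perm Ω)} (hX : partStab f ⊓ alternatingGroup Ω ≤ X)
    {g : Perm Ω} (hg : g ∈ partStab f) {u v : Ω} (huv : u ≠ v) (hf : f u = f v) {x x' : Ω} (hgx : g x = x')
    (hu : x' ≠ u) (hv : x' ≠ v) {y y' : Ω} (hgy : g y = y') (hu' : y' ≠ u) (hv' : y' ≠ v) :
    ∃ k ∈ X, k ∈ partStab f ∧ k x = x' ∧ k y = y' := by
  by_cases hs : Perm.sign g = 1
  · exact ⟨g, hX ⟨hg, hs⟩, hg, hgx, hgy⟩
  · have hm : swap u v * g ∈ partStab f := (partStab f).mul_mem (swap_mem_partStab hf) hg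
    refine ⟨swap u v * g, hX ⟨hm, mul_mem_alt_of_odd (Perm.sign_swap huv) hs⟩, hm, ?_, ?_⟩
    · rw [Perm.mul_apply, hgx, swap_apply_of_ne_of_ne hu hv]
    · rw [Perm.mul_apply, hgy, swap_apply_of_ne_of_ne hu' hv']

theorem exists_not_mem_partStab {f : Ω → ι} (h1 : ∃ x x' y, x ≠ x' ∧ f x = f x' ∧ f y ≠ f x) :
    ∃ g ∈ alternatingGroup Ω, g ∉ partStab f := by
  obtain ⟨x, x', y, hxx', hf, hy⟩ := h1
  have hyx : y ≠ x := fun h => hy (by rw [h])
  have hyx' : y ≠ x' := fun h => hy (by rw [h, hf])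
  refine ⟨swap x' x * swap x' y, ?_, fun h => ?_⟩
  · exact (Perm.isThreeCycle_swap_mul_swap_same hxx'.symm hyx'.symm hyx.symm).mem_alternatingGroup
  · have h2 := (h x x').mp hf
    rw [Perm.mul_apply, Perm.mul_apply, swap_apply_left, swap_apply_of_ne_of_ne hxx' hyx.symm,
      swap_apply_right, swap_apply_of_ne_of_ne hyx' hyx] at h2
    exact hy (h2.symm.trans hf.symm)

/-- The part of the transitivity that always holds. -/
theorem alt_trans {f : Ω → ι} {a : ℕ} (ha : 2 ≤ a)
    (hf : ∀ x : Ω, Nat.card {y : Ω // f y = f x} = a) (hb : ∀ x : Ω, ∃ y : Ω, f y ≠ f x)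
    {X : Subgroup (Perm Ω)} (hX : partStab f ⊓ alternatingGroup Ω ≤ X) (x y : Ω) :
    ∃ g ∈ X, g ∈ partStab f ∧ g x = y := by
  have hpartner : ∀ x : Ω, ∃ y, y ≠ x ∧ f y = f x := by
    intro x
    have h1 : 1 < Nat.card {y : Ω // f y = f x} := by rw [hf x]; omega
    rw [Finite.one_lt_card_iff_nontrivial] at h1
    obtain ⟨⟨y, hy⟩, hne⟩ := exists_ne (⟨x, rfl⟩ : {y : Ω // f y = f x})
    exact ⟨y, fun h => hne (Subtype.ext h), hy⟩
  obtain ⟨g, hg, hgx⟩ : ∃ g ∈ partStab f, g x = y := by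
    by_cases hxy : f x = f y
    · exact ⟨swap x y, swap_mem_partStab hxy, swap_apply_left _ _⟩
    · obtain ⟨g, hg, hgz, _⟩ := exists_swap_fibres hf hxy
      exact ⟨g, hg, hgz⟩
  obtain ⟨u, hu⟩ := hb y
  obtain ⟨v, hvu, hfv⟩ := hpartner u
  have hyu : y ≠ u := fun h => hu (by rw [h])
  have hyv : y ≠ v := fun h => hu (by rw [h, hfv])
  obtain ⟨k, hk, hk', hkx, _⟩ := parity_fix hX hg hvu.symm hfv.symm hgx hyu hyv hgx hyu hyv
  exact ⟨k, hk, hk', hkx⟩

/-- Fibres of size at least 3. -/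
theorem alt_prim_of_three_le {f : Ω → ι} {a : ℕ} (ha : 3 ≤ a)
    (hf : ∀ x : Ω, Nat.card {y : Ω // f y = f x} = a) (hb : ∀ x : Ω, ∃ y : Ω, f y ≠ f x)
    {X : Subgroup (Perm Ω)} (hX : partStab f ⊓ alternatingGroup Ω ≤ X) (hXK : ¬ X ≤ partStab f) :
    IsPreprimitive X Ω := by
  classical
  have h2 : ∀ x : Ω, ∃ u v, u ≠ v ∧ u ≠ x ∧ v ≠ x ∧ f u = f x ∧ f v = f x := by
    intro x
    have h1 : 2 < Nat.card {y : Ω // f y = f x} := by rw [hf x]; omega
    rw [Nat.card_eq_fintype_card] at h1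
    obtain ⟨u, hu, v, hv, huv⟩ : ∃ u : {y : Ω // f y = f x}, u ≠ ⟨x, rfl⟩ ∧
        ∃ v : {y : Ω // f y = f x}, v ≠ ⟨x, rfl⟩ ∧ u ≠ v := by
      obtain ⟨p, q, r, hpq, hpr, hqr⟩ := Fintype.two_lt_card_iff.mp h1
      by_cases hp : p = ⟨x, rfl⟩
      · exact ⟨q, fun h => hpq (hp.trans h.symm), r, fun h => hpr (hp.trans h.symm), hqr⟩
      · by_cases hq : q = ⟨x, rfl⟩
        · exact ⟨p, hp, r, fun h => hqr (hq.trans h.symm), hpr⟩
        · exact ⟨p, hp, q, hq, hpq⟩
    exact ⟨u, v, fun h => huv (Subtype.ext h), fun h => hu (Subtype.ext h), fun h => hv (Subtype.ext h), u.2, v.2⟩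
  refine isPreprimitive_of_not_le (f := f) ?_ ?_ (alt_trans (by omega) hf hb hX) hXK
  · intro x z w hz hw
    obtain ⟨g, hg, hgx, hgz⟩ : ∃ g ∈ partStab f, g x = x ∧ g z = w := by
      by_cases hzw : f z = f w
      · refine ⟨swap z w, swap_mem_partStab hzw, swap_apply_of_ne_of_ne ?_ ?_, swap_apply_left _ _⟩
        · rintro rfl; exact hz rfl
        · rintro rfl; exact hw rfl
      · obtain ⟨g, hg, hgz, _, hfix, _⟩ := exists_swap_fibres hf hzw
        exact ⟨g, hg, hfix x hz.symm hw.symm, hgz⟩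
    obtain ⟨u, v, huv, hux, hvx, hfu, hfv⟩ := h2 x
    obtain ⟨k, hk, _, hkx, hkz⟩ := parity_fix hX hg huv (hfu.trans hfv.symm) hgx hux.symm hvx.symm hgz
      (fun h => hw (by rw [h, hfu])) (fun h => hw (by rw [h, hfv]))
    exact ⟨k, hk, hkx, hkz⟩
  · intro x y w hy hw hfy hfw
    obtain ⟨t, ht⟩ := hb x
    obtain ⟨u, v, huv, _, _, hfu, hfv⟩ := h2 t
    obtain ⟨k, hk, _, hkx, hkz⟩ := parity_fix hX (swap_mem_partStab (hfy.trans hfw.symm)) huv
      (hfu.trans hfv.symm) (swap_apply_of_ne_of_ne hy.symm hw.symm)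
      (fun h => ht (by rw [h, hfu])) (fun h => ht (by rw [h, hfv])) (swap_apply_left y w)
      (fun h => ht (by rw [← hfw, h, hfu])) (fun h => ht (by rw [← hfw, h, hfv]))
    exact ⟨k, hk, hkx, hkz⟩

theorem alt_threeCycle_of_three_le {f : Ω → ι} {a : ℕ} (ha : 3 ≤ a)
    (hf : ∀ x : Ω, Nat.card {y : Ω // f y = f x} = a) [Nonempty Ω]
    {X : Subgroup (Perm Ω)} (hX : partStab f ⊓ alternatingGroup Ω ≤ X) :
    ∃ g ∈ X, g.IsThreeCycle := by
  classical
  obtain ⟨x⟩ := ‹Nonempty Ω›
  have h1 : 2 < Nat.card {y : Ω // f y = f x} := by rw [hf x]; omega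
  rw [Nat.card_eq_fintype_card] at h1
  obtain ⟨p, q, r, hpq, hpr, hqr⟩ := Fintype.two_lt_card_iff.mp h1
  have h3 := Perm.isThreeCycle_swap_mul_swap_same (fun h => hpq (Subtype.ext h))
    (fun h => hpr (Subtype.ext h)) (fun h => hqr (Subtype.ext h))
  exact ⟨swap (p : Ω) q * swap (p : Ω) r, hX ⟨(partStab f).mul_mem
    (swap_mem_partStab (p.2.trans q.2.symm)) (swap_mem_partStab (p.2.trans r.2.symm)),
    h3.mem_alternatingGroup⟩, h3⟩

/-- Fibres of size 2, at least three of them. -/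
theorem alt_prim_of_two {f : Ω → ι}
    (hf : ∀ x : Ω, Nat.card {y : Ω // f y = f x} = 2) (hb : ∀ x y : Ω, ∃ z : Ω, f z ≠ f x ∧ f z ≠ f y)
    {X : Subgroup (Perm Ω)} (hX : partStab f ⊓ alternatingGroup Ω ≤ X) (hXK : ¬ X ≤ partStab f) :
    IsPreprimitive X Ω := by
  classical
  have hpartner : ∀ x : Ω, ∃ y, y ≠ x ∧ f y = f x := by
    intro x
    have h1 : 1 < Nat.card {y : Ω // f y = f x} := by rw [hf x]; omega
    rw [Finite.one_lt_card_iff_nontrivial] at h1
    obtain ⟨⟨y, hy⟩, hne⟩ := exists_ne (⟨x, rfl⟩ : {y : Ω // f y = f x})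
    exact ⟨y, fun h => hne (Subtype.ext h), hy⟩
  refine isPreprimitive_of_not_le (f := f) ?_ ?_
    (alt_trans le_rfl hf (fun x => (hb x x).imp fun _ h => h.1) hX) hXK
  · intro x z w hz hw
    obtain ⟨g, hg, hgx, hgz⟩ : ∃ g ∈ partStab f, g x = x ∧ g z = w := by
      by_cases hzw : f z = f w
      · refine ⟨swap z w, swap_mem_partStab hzw, swap_apply_of_ne_of_ne ?_ ?_, swap_apply_left _ _⟩
        · rintro rfl; exact hz rfl
        · rintro rfl; exact hw rfl
      · obtain ⟨g, hg, hgz, _, hfix, _⟩ := exists_swap_fibres hf hzw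
        exact ⟨g, hg, hfix x hz.symm hw.symm, hgz⟩
    obtain ⟨t, ht, ht'⟩ := hb x w
    obtain ⟨t', htt', hft⟩ := hpartner t
    obtain ⟨k, hk, _, hkx, hkz⟩ := parity_fix hX hg htt'.symm hft.symm hgx
      (fun h => ht (by rw [h])) (fun h => ht (by rw [h, hft])) hgz
      (fun h => ht' (by rw [h])) (fun h => ht' (by rw [h, hft]))
    exact ⟨k, hk, hkx, hkz⟩
  · intro x y w hy hw hfy hfw
    have hyw : y = w := by
      by_contra hne
      have h1 : 2 < Nat.card {y : Ω // f y = f x} := by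
        rw [Nat.card_eq_fintype_card, Fintype.two_lt_card_iff]
        exact ⟨⟨x, rfl⟩, ⟨y, hfy⟩, ⟨w, hfw⟩, fun h => hy (congrArg Subtype.val h).symm,
          fun h => hw (congrArg Subtype.val h).symm, fun h => hne (congrArg Subtype.val h)⟩
      rw [hf x] at h1
      omega
    exact ⟨1, X.one_mem, rfl, by rw [hyw]; rfl⟩

/-- Fibres of size 2: existence of 3-cycles in a larger group. `b ≥ 5` resp. exactly three fibres. -/
theorem alt_threeCycle_of_two {f : Ω → ι}
    (hf : ∀ x : Ω, Nat.card {y : Ω // f y = f x} = 2)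
    (hb : (∀ x₁ x₂ x₃ x₄ : Ω, ∃ z : Ω, f z ≠ f x₁ ∧ f z ≠ f x₂ ∧ f z ≠ f x₃ ∧ f z ≠ f x₄) ∨
      ((∀ x₁ x₂ : Ω, ∃ z : Ω, f z ≠ f x₁ ∧ f z ≠ f x₂) ∧
        (∀ x₁ x₂ x₃ x₄ : Ω, f x₁ ≠ f x₂ → f x₃ ≠ f x₁ → f x₃ ≠ f x₂ → f x₄ ≠ f x₁ → f x₄ ≠ f x₂ → f x₃ = f x₄)))
    {X : Subgroup (Perm Ω)} (hX : partStab f ⊓ alternatingGroup Ω ≤ X) (hXK : ¬ X ≤ partStab f) :
    ∃ g ∈ X, g.IsThreeCycle := by
  classical
  have hpartner : ∀ x : Ω, ∃ y, y ≠ x ∧ f y = f x ∧ ∀ w, f w = f x → w = x ∨ w = y := by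
    intro x
    have h1 : 1 < Nat.card {y : Ω // f y = f x} := by rw [hf x]; omega
    rw [Finite.one_lt_card_iff_nontrivial] at h1
    obtain ⟨⟨y, hy⟩, hne⟩ := exists_ne (⟨x, rfl⟩ : {y : Ω // f y = f x})
    refine ⟨y, fun h => hne (Subtype.ext h), hy, ?_⟩
    intro w hw
    by_contra hcon
    push Not at hcon
    have h1 : 2 < Nat.card {y : Ω // f y = f x} := by
      rw [Nat.card_eq_fintype_card, Fintype.two_lt_card_iff]
      exact ⟨⟨x, rfl⟩, ⟨y, hy⟩, ⟨w, hw⟩, fun h => hne h.symm,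
        fun h => hcon.1 (congrArg Subtype.val h).symm, fun h => hcon.2 (congrArg Subtype.val h).symm⟩
    rw [hf x] at h1
    omega
  choose π hπ1 hπ2 hπ3 using hpartner
  have hππ : ∀ x, π (π x) = x := by
    intro x
    rcases hπ3 x (π (π x)) (by rw [hπ2, hπ2]) with h | h
    · exact h
    · exact absurd h (hπ1 (π x))
  -- an element of `X` moving a pair to a non-pair
  obtain ⟨g, hg, x, hgx⟩ : ∃ g ∈ X, ∃ x, f (g x) ≠ f (g (π x)) := by
    obtain ⟨g, hg, hgK⟩ := SetLike.not_le_iff_exists.mp hXK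
    by_contra hcon
    push Not at hcon
    have hc : ∀ h ∈ X, ∀ x y, f x = f y → f (h x) = f (h y) := by
      intro h hh x y hxy
      rcases hπ3 y x hxy with h1 | h1
      · rw [h1]
      · rw [h1]; exact (hcon h hh y).symm
    apply hgK
    intro y z
    refine ⟨hc g hg y z, fun h => ?_⟩
    have := hc g⁻¹ (X.inv_mem hg) _ _ h
    rwa [inv_apply_cancel', inv_apply_cancel'] at this
  set u := g x with hu
  set v := g (π x) with hv
  have huv : u ≠ v := fun h => hgx (by rw [h])
  have hfu' := hπ2 u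
  have hfv' := hπ2 v
  have huu' := hπ1 u
  have hvv' := hπ1 v
  have hu'v : π u ≠ v := fun h => hgx (by rw [← h, hfu'])
  have huv' : u ≠ π v := fun h => hgx (by rw [h, hfv'])
  have hu'v' : π u ≠ π v := fun h => hgx (by rw [← hfu', h, hfv'])
  -- double transpositions inside `K`
  have hKK : ∀ y z, f y ≠ f z → swap y (π y) * swap z (π z) ∈ X := by
    intro y z hyz
    refine hX ⟨(partStab f).mul_mem (swap_mem_partStab (hπ2 y).symm) (swap_mem_partStab (hπ2 z).symm), ?_⟩
    change _ ∈ alternatingGroup Ω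
    rw [Perm.mem_alternatingGroup, Perm.sign_mul, Perm.sign_swap (hπ1 y).symm,
      Perm.sign_swap (hπ1 z).symm]
    rfl
  -- their conjugates by `g`
  have hτ : ∀ y, f y ≠ f x → swap u v * swap (g y) (g (π y)) ∈ X := by
    intro y hy
    have h1 := X.mul_mem (X.mul_mem hg (hKK x y hy.symm)) (X.inv_mem hg)
    have h2 : g * (swap x (π x) * swap y (π y)) * g⁻¹ = swap u v * swap (g y) (g (π y)) := by
      rw [hu, hv, swap_apply_apply, swap_apply_apply]
      group
    rwa [h2] at h1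
  -- a general commuting computation
  have hcomm : ∀ a b c d : Ω, a ≠ c → a ≠ d → b ≠ c → b ≠ d → swap a b * swap c d = swap c d * swap a b := by
    intro a b c d h1 h2 h3 h4
    rw [mul_swap_eq_swap_mul, swap_apply_of_ne_of_ne h1.symm h3.symm, swap_apply_of_ne_of_ne h2.symm h4.symm]
  rcases hb with hb | ⟨hb1, hb2⟩
  · obtain ⟨y, hy1, hy2, _, _⟩ := hb x (g⁻¹ (π u)) x x
    have hgy : g y ≠ π u := fun h => hy2 (by rw [← h, inv_apply_cancel'])
    have hgy' : g (π y) ≠ π u := fun h => hy2 (by rw [← h, inv_apply_cancel', hπ2])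
    have hyx : y ≠ x := fun h => hy1 (by rw [h])
    have hyx' : y ≠ π x := fun h => hy1 (by rw [h, hπ2])
    have hy'x : π y ≠ x := fun h => hy1 (by rw [← h, hπ2])
    have hy'x' : π y ≠ π x := fun h => hy1 (by rw [← hπ2 y, h, hπ2])
    have e1 : g y ≠ u := fun h => hyx (g.injective h)
    have e2 : g y ≠ v := fun h => hyx' (g.injective h)
    have e3 : g (π y) ≠ u := fun h => hy'x (g.injective h)
    have e4 : g (π y) ≠ v := fun h => hy'x' (g.injective h)
    obtain ⟨c, hc1, hc2, hc3, hc4⟩ := hb u v (g y) (g (π y))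
    have hcf : ∀ t, f c ≠ f t → t ≠ c ∧ t ≠ π c := fun t ht =>
      ⟨fun h => ht (by rw [h]), fun h => ht (by rw [h, hπ2])⟩
    have hτy := hτ y hy1
    have hρ := hKK u c hc1.symm
    have hρτ := X.mul_mem (X.mul_mem hρ hτy) (X.inv_mem hρ)
    have hρv : (swap u (π u) * swap c (π c)) v = v := by
      rw [Perm.mul_apply, swap_apply_of_ne_of_ne (hcf v hc2).1 (hcf v hc2).2,
        swap_apply_of_ne_of_ne huv.symm hu'v.symm]
    have hρu : (swap u (π u) * swap c (π c)) u = π u := by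
      rw [Perm.mul_apply, swap_apply_of_ne_of_ne (hcf u hc1).1 (hcf u hc1).2, swap_apply_left]
    have hρy : (swap u (π u) * swap c (π c)) (g y) = g y := by
      rw [Perm.mul_apply, swap_apply_of_ne_of_ne (hcf _ hc3).1 (hcf _ hc3).2,
        swap_apply_of_ne_of_ne e1 hgy]
    have hρy' : (swap u (π u) * swap c (π c)) (g (π y)) = g (π y) := by
      rw [Perm.mul_apply, swap_apply_of_ne_of_ne (hcf _ hc4).1 (hcf _ hc4).2,
        swap_apply_of_ne_of_ne e3 hgy']
    have hconj : (swap u (π u) * swap c (π c)) * (swap u v * swap (g y) (g (π y))) *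
        (swap u (π u) * swap c (π c))⁻¹ = swap (π u) v * swap (g y) (g (π y)) := by
      have h1 := swap_apply_apply (swap u (π u) * swap c (π c)) u v
      have h2 := swap_apply_apply (swap u (π u) * swap c (π c)) (g y) (g (π y))
      rw [hρu, hρv] at h1
      rw [hρy, hρy'] at h2
      rw [h1]
      nth_rewrite 2 [h2]
      group
    rw [hconj] at hρτ
    have hprod := X.mul_mem hτy hρτ
    have h3 : swap u v * swap (g y) (g (π y)) * (swap (π u) v * swap (g y) (g (π y))) =
        swap v u * swap v (π u) := by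
      rw [hcomm (π u) v (g y) (g (π y)) hgy.symm hgy'.symm e2.symm e4.symm]
      rw [mul_assoc, ← mul_assoc (swap (g y) (g (π y))) (swap (g y) (g (π y))), swap_mul_self, one_mul,
        swap_comm u v, swap_comm (π u) v]
    rw [h3] at hprod
    exact ⟨_, hprod, Perm.isThreeCycle_swap_mul_swap_same huv.symm hu'v.symm huu'.symm⟩
  · -- three fibres
    have hσ : swap u v * swap (π u) (π v) ∈ X := by
      refine hX ⟨?_, ?_⟩
      · obtain ⟨k, hk, hku, hkv, hfix, hk1, hk2⟩ := exists_swap_fibres hf hgx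
        have hk' : k (π u) = π v := by
          rcases hπ3 v (k (π u)) (hk1 _ hfu') with h | h
          · exact absurd (k.injective (h.trans hku.symm)) huu'
          · exact h
        have hk'' : k (π v) = π u := by
          rcases hπ3 u (k (π v)) (hk2 _ hfv') with h | h
          · exact absurd (k.injective (h.trans hkv.symm)) hvv'
          · exact h
        have : k = swap u v * swap (π u) (π v) := by
          ext t
          rw [Perm.mul_apply]
          by_cases ht1 : f t = f u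
          · rcases hπ3 u t ht1 with h | h
            · rw [h, hku, swap_apply_of_ne_of_ne huu'.symm huv', swap_apply_left]
            · rw [h, hk', swap_apply_left, swap_apply_of_ne_of_ne huv'.symm hvv']
          · by_cases ht2 : f t = f v
            · rcases hπ3 v t ht2 with h | h
              · rw [h, hkv, swap_apply_of_ne_of_ne hu'v.symm hvv'.symm, swap_apply_right]
              · rw [h, hk'', swap_apply_right, swap_apply_of_ne_of_ne huu' hu'v]
            · have n1 : t ≠ u := fun h => ht1 (by rw [h])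
              have n2 : t ≠ v := fun h => ht2 (by rw [h])
              have n3 : t ≠ π u := fun h => ht1 (by rw [h, hfu'])
              have n4 : t ≠ π v := fun h => ht2 (by rw [h, hfv'])
              rw [hfix t ht1 ht2, swap_apply_of_ne_of_ne n3 n4, swap_apply_of_ne_of_ne n1 n2]
        rw [← this]
        exact hk
      · change _ ∈ alternatingGroup Ω
        rw [Perm.mem_alternatingGroup, Perm.sign_mul, Perm.sign_swap huv,
          Perm.sign_swap hu'v']
        rfl
    -- the point mapped to `π u`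
    set y := g⁻¹ (π u) with hy
    have hgy : g y = π u := apply_inv_cancel' g _
    have hyx : y ≠ x := fun h => huu' (by rw [← hgy, h])
    have hyx' : y ≠ π x := fun h => hu'v (by rw [← hgy, h])
    have hfy : f y ≠ f x := fun h => (hπ3 x y h).elim hyx hyx'
    have hy'x : π y ≠ x := fun h => hfy (by rw [← h, hπ2])
    have hy'x' : π y ≠ π x := fun h => hfy (by rw [← hπ2 y, h, hπ2])
    have e3 : g (π y) ≠ u := fun h => hy'x (g.injective h)
    have e4 : g (π y) ≠ v := fun h => hy'x' (g.injective h)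
    have e5 : g (π y) ≠ π u := fun h => hπ1 y (g.injective (h.trans hgy.symm))
    have hτy := hτ y hfy
    rw [hgy] at hτy
    by_cases hz : g (π y) = π v
    · -- the third fibre is the image of the third fibre
      obtain ⟨t, ht1, ht2⟩ := hb1 x y
      have htx : t ≠ x := fun h => ht1 (by rw [h])
      have htx' : t ≠ π x := fun h => ht1 (by rw [h, hπ2])
      have ht'x : π t ≠ x := fun h => ht1 (by rw [← h, hπ2])
      have ht'x' : π t ≠ π x := fun h => ht1 (by rw [← hπ2 t, h, hπ2])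
      have hty : t ≠ y := fun h => ht2 (by rw [h])
      have hty' : t ≠ π y := fun h => ht2 (by rw [h, hπ2])
      have ht'y : π t ≠ y := fun h => ht2 (by rw [← h, hπ2])
      have ht'y' : π t ≠ π y := fun h => ht2 (by rw [← hπ2 t, h, hπ2])
      have hout : ∀ s, s ≠ x → s ≠ π x → s ≠ y → s ≠ π y → f (g s) ≠ f u ∧ f (g s) ≠ f v := by
        intro s h1 h2 h3 h4
        constructor
        · intro h
          rcases hπ3 u (g s) h with h' | h'
          · exact h1 (g.injective h')
          · exact h3 (g.injective (h'.trans hgy.symm))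
        · intro h
          rcases hπ3 v (g s) h with h' | h'
          · exact h2 (g.injective h')
          · exact h4 (g.injective (h'.trans hz.symm))
      obtain ⟨a1, a2⟩ := hout t htx htx' hty hty'
      obtain ⟨a3, a4⟩ := hout (π t) ht'x ht'x' ht'y ht'y'
      have hpair : g (π t) = π (g t) := by
        rcases hπ3 (g t) (g (π t)) (hb2 u v _ _ hgx a3 a4 a1 a2) with h | h
        · exact absurd (g.injective h) (hπ1 t)
        · exact h
      have hτt := hτ t ht1
      rw [hpair] at hτt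
      have hρ := hKK u (g t) a1.symm
      have hprod := X.mul_mem hτt (X.inv_mem hρ)
      have h3 : swap u v * swap (g t) (π (g t)) * (swap u (π u) * swap (g t) (π (g t)))⁻¹ =
          swap u v * swap u (π u) := by
        rw [mul_inv_rev, swap_inv, swap_inv, mul_assoc, ← mul_assoc (swap (g t) (π (g t))), swap_mul_self,
          one_mul]
      rw [h3] at hprod
      exact ⟨_, hprod, Perm.isThreeCycle_swap_mul_swap_same huv huu'.symm hu'v.symm⟩
    · have hprod := X.mul_mem hσ hτy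
      have h3 : swap u v * swap (π u) (π v) * (swap u v * swap (π u) (g (π y))) =
          swap (π u) (π v) * swap (π u) (g (π y)) := by
        rw [hcomm u v (π u) (π v) huu'.symm huv' hu'v.symm hvv'.symm, mul_assoc,
          ← mul_assoc (swap u v), swap_mul_self, one_mul]
      rw [h3] at hprod
      exact ⟨_, hprod, Perm.isThreeCycle_swap_mul_swap_same hu'v' e5.symm (fun h => hz h.symm)⟩

end Cfsg.Agent.SymMax
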